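import Mathlib
import Cfsg.Agent.Lib.Helper41.SnB.Q8Defs
import Cfsg.Agent.Lib.Helper34.SnB.QSDefs

/-!
S2986, package [Q8-M] (helper83): interface of the sub-packages.  Definitions, package statements,
the coprime chain lemma [CH] and the assembly of [Q8-M] from its sub-packages.
Notation as in `Cfsg.Agent.Lib.Helper41.SnB.Defs`: `Qb p X = O_p(X)`, `Wb p X = Ω₁(Z(Q))`,
`Zb p X = C_W(X)`, `Ab p X = [W, X]`, `Vb p G = Ω₁(Z(O_p(G)))`.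
-/

set_option autoImplicit false

namespace Cfsg.Agent.Lib.Helper83.SnB

open Cfsg Cfsg.Agent.Lib.Helper41.SnB Cfsg.Agent.Lib.Helper34.SnB

universe u

variable {G : Type u} [Group G]

/-- [CH] the coprime chain lemma: a `2`-element `x` centralizing `U ≤ H` and acting trivially on
`H` modulo `U`, `H` consisting of `3`-elements, centralizes `H`. -/
theorem coprimeChain (H U : Subgroup G) (x : G)
    (hH : ∀ h ∈ H, ∃ n : ℕ, h ^ (3 ^ n) = 1) (hx : ∃ m : ℕ, x ^ (2 ^ m) = 1) (hU : U ≤ H)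
    (hxU : ∀ u ∈ U, x * u = u * x) (hxH : ∀ h ∈ H, x * h * x⁻¹ * h⁻¹ ∈ U) :
    ∀ h ∈ H, x * h = h * x := by
  intro h hh
  obtain ⟨m, hm⟩ := hx
  obtain ⟨c, hc⟩ : ∃ c, c = x * h * x⁻¹ * h⁻¹ := ⟨_, rfl⟩
  have hcU : c ∈ U := hc ▸ hxH h hh
  have hxc : x * c = c * x := hxU c hcU
  have hconj : x * h * x⁻¹ = c * h := by rw [hc]; group
  have key : ∀ j : ℕ, x ^ j * h * (x ^ j)⁻¹ = c ^ j * h := by
    intro j
    induction j with
    | zero => simp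
    | succ j ih =>
      have hxcj : x * c ^ j = c ^ j * x := (Commute.pow_right (show Commute x c from hxc) j).eq
      calc x ^ (j + 1) * h * (x ^ (j + 1))⁻¹ = x * (x ^ j * h * (x ^ j)⁻¹) * x⁻¹ := by
            rw [pow_succ']; group
        _ = x * (c ^ j * h) * x⁻¹ := by rw [ih]
        _ = (x * c ^ j) * h * x⁻¹ := by group
        _ = c ^ j * (x * h * x⁻¹) := by rw [hxcj]; group
        _ = c ^ (j + 1) * h := by rw [hconj, pow_succ]; group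
  have h1 : c ^ (2 ^ m) = 1 := by
    have h2 := key (2 ^ m)
    rw [hm] at h2
    have h3 : c ^ (2 ^ m) * h = h := by rw [← h2]; group
    exact mul_eq_right.mp h3
  obtain ⟨n, hn⟩ := hH c (hU hcU)
  have hc1 : c = 1 := by
    have hcop : Nat.Coprime (2 ^ m) (3 ^ n) := Nat.Coprime.pow _ _ (by norm_num)
    have hd : orderOf c ∣ Nat.gcd (2 ^ m) (3 ^ n) :=
      Nat.dvd_gcd (orderOf_dvd_of_pow_eq_one h1) (orderOf_dvd_of_pow_eq_one hn)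
    rw [hcop.gcd_eq_one, Nat.dvd_one] at hd
    exact orderOf_eq_one_iff.mp hd
  rw [hc1, one_mul] at hconj
  calc x * h = x * h * x⁻¹ * x := by group
    _ = h * x := by rw [hconj]

/-- The global facts (`p = 3`, `P = O_p(G)`, `V = Ω₁(Z(P))`, `S₀`). -/
structure GF (p : ℕ) (S₀ : Subgroup G) : Prop where
  p3 : p = 3
  hG : Subgroup.centralizer (pCore p G : Set G) ≤ pCore p G
  syl : SylSetup p S₀
  Pp : ∀ c ∈ pCore p G, ∃ n : ℕ, c ^ (3 ^ n) = 1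
  Pn : ∀ g : G, ∀ c ∈ pCore p G, g * c * g⁻¹ ∈ pCore p G
  S2 : ∀ x ∈ S₀, ∃ m : ℕ, x ^ (2 ^ m) = 1
  ST : ∀ x ∈ S₀, (∀ c ∈ pCore p G, x * c = c * x) → x = 1
  VP : Vb p G ≤ pCore p G
  Vn : ∀ g : G, ∀ v ∈ Vb p G, g * v * g⁻¹ ∈ Vb p G
  Vc : ∀ v ∈ Vb p G, ∀ c ∈ pCore p G, v * c = c * v
  V3 : ∀ v ∈ Vb p G, v ^ 3 = 1

/-- (x1)-(x3): the first derived facts on a block `X` of type `Q₈` (`K`, `z`). -/
structure OB1 (p : ℕ) (X K : Subgroup G) (z : G) : Prop where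
  W3 : ∀ w ∈ Wb p X, w ^ 3 = 1
  PXQ : ∀ e ∈ X, ∀ c ∈ pCore p G, e * c * e⁻¹ * c⁻¹ ∈ Qb p X
  KP : ∀ k ∈ K, k ∈ pCore p G → k = 1
  K8 : ∀ k ∈ K, k ^ 8 = 1
  nonab : ∃ k ∈ K, ∃ k' ∈ K, k * k' * k⁻¹ * k'⁻¹ = z
  VQW : Vb p G ⊓ Qb p X ≤ Wb p X
  AZ0 : ∀ a ∈ Ab p X, a ∈ Zb p X → a = 1

/-- A non-exceptional block: `Q = W = A`, `Z = 1`. -/
def NB (p : ℕ) (X : Subgroup G) : Prop :=
  Qb p X = Ab p X ∧ Wb p X = Ab p X ∧ Zb p X = ⊥

/-- (x4): the facts on an exceptional block. -/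
structure XB (p : ℕ) (S₀ X K : Subgroup G) (z : G) : Prop where
  exc : ExcS p X K z
  nq : NQprop p S₀ X
  ZV : Zb p X ≤ Vb p G
  WV : Wb p X ≤ Vb p G
  cardW : Nat.card ↥(Wb p X) = 27
  u9 : ∀ u ∈ Qb p X, u ^ 9 ∈ Wb p X
  sqW : ∀ u ∈ Qb p X, u * u ∈ Wb p X → u ∈ Wb p X
  QZ : ∀ u ∈ Qb p X, ∀ u' ∈ Qb p X, u * u' * u⁻¹ * u'⁻¹ ∈ Zb p X
  QneW : ¬ Qb p X ≤ Wb p X
  invW : ∀ w ∈ Wb p X, z * w * z⁻¹ = w⁻¹ → w ∈ Ab p X
  noInv : ∀ x ∈ S₀, (∀ u ∈ Qb p X, x * u * x⁻¹ ∈ Qb p X) →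
    (∀ w ∈ Wb p X, x * w * x⁻¹ * w⁻¹ ∈ Zb p X) →
    (∀ c ∈ pCore p G, ∀ u ∈ Qb p X,
      (x * c * x⁻¹ * c⁻¹) * u * (x * c * x⁻¹ * c⁻¹)⁻¹ * u⁻¹ ∈ Zb p X) →
    (∀ u ∈ Qb p X, x * u * x⁻¹ * u ∈ Wb p X) → False

/-- The two kinds of blocks. -/
def Alt (p : ℕ) (S₀ X K : Subgroup G) (z : G) : Prop :=
  NB p X ∨ XB p S₀ X K z

/-- All the facts on one block `X` of type `Q₈` with complement `K` and involution `z`. -/
structure OB (p : ℕ) (S₀ X K : Subgroup G) (z : G) : Prop where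
  sb : SBlk p X
  bf : BF p X
  q8 : Q8S p S₀ X K z
  b1 : OB1 p X K z
  alt : Alt p S₀ X K z
  ZQ : Qb p X = Subgroup.closure {g : G | ∃ c ∈ pCore p G, g = z * c * z⁻¹ * c⁻¹}
  CQz : ∀ u ∈ Qb p X, z * u = u * z → u ∈ Zb p X
  CP : ∀ c ∈ pCore p G, z * c = c * z → ∀ k ∈ K, k * c = c * k
  PQC : ∀ c ∈ pCore p G, ∃ u ∈ Qb p X, ∃ c₁ ∈ pCore p G, c = u * c₁ ∧ z * c₁ = c₁ * z
  cq : CQPair (Vb p G) 9 K (Ab p X) z

/-- Two exceptional blocks with the same `Q V`. -/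
def Same (p : ℕ) (E F : Subgroup G) : Prop :=
  Qb p E ⊔ Vb p G = Qb p F ⊔ Vb p G

/-- Two exceptional blocks: each complement centralizes the other `Q` modulo `V`. -/
def Orth (p : ℕ) (E F KE KF : Subgroup G) : Prop :=
  (∀ l ∈ KF, ∀ u ∈ Qb p E, l * u * l⁻¹ * u⁻¹ ∈ Vb p G) ∧
    (∀ k ∈ KE, ∀ v ∈ Qb p F, k * v * k⁻¹ * v⁻¹ ∈ Vb p G)

/-! ### One-block sub-packages -/

/-- [M-GF] the global facts. -/
def PkgGF : Prop :=
  ∀ {G : Type u} [Group G] [Finite G] {p : ℕ} [Fact p.Prime], p = 3 →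
    Subgroup.centralizer (pCore p G : Set G) ≤ pCore p G →
    ∀ S₀ : Subgroup G, SylSetup p S₀ → GF p S₀

/-- [M-OB1] the first derived facts on one block. -/
def PkgOB1 : Prop :=
  ∀ {G : Type u} [Group G] [Finite G] {p : ℕ} [Fact p.Prime] (S₀ X K : Subgroup G) (z : G),
    GF p S₀ → SBlk p X → BF p X → Q8S p S₀ X K z → OB1 p X K z

/-- [M-NB] a non-exceptional block. -/
def PkgNB : Prop :=
  ∀ {G : Type u} [Group G] [Finite G] {p : ℕ} [Fact p.Prime] (S₀ X K : Subgroup G) (z : G),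
    GF p S₀ → SBlk p X → BF p X → Q8S p S₀ X K z → OB1 p X K z → Qb p X = Ab p X → NB p X

/-- [M-XB] an exceptional block. -/
def PkgXB : Prop :=
  ∀ {G : Type u} [Group G] [Finite G] {p : ℕ} [Fact p.Prime] (S₀ X K : Subgroup G) (z : G),
    GF p S₀ → SBlk p X → BF p X → Q8S p S₀ X K z → OB1 p X K z → ExcS p X K z →
    NQprop p S₀ X → XB p S₀ X K z

/-- [M-ZQ] `Q = [O_p(G), z]`. -/
def PkgZQ : Prop :=
  ∀ {G : Type u} [Group G] [Finite G] {p : ℕ} [Fact p.Prime] (S₀ X K : Subgroup G) (z : G),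
    GF p S₀ → SBlk p X → BF p X → Q8S p S₀ X K z → OB1 p X K z → Alt p S₀ X K z →
    Qb p X = Subgroup.closure {g : G | ∃ c ∈ pCore p G, g = z * c * z⁻¹ * c⁻¹}

/-- [M-CP] `C_Q(z) = Z`, `K` centralizes `C_P(z)`, and `P = Q C_P(z)`. -/
def PkgCP : Prop :=
  ∀ {G : Type u} [Group G] [Finite G] {p : ℕ} [Fact p.Prime] (S₀ X K : Subgroup G) (z : G),
    GF p S₀ → SBlk p X → BF p X → Q8S p S₀ X K z → OB1 p X K z → Alt p S₀ X K z →
    (∀ u ∈ Qb p X, z * u = u * z → u ∈ Zb p X) ∧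
    (∀ c ∈ pCore p G, z * c = c * z → ∀ k ∈ K, k * c = c * k) ∧
    (∀ c ∈ pCore p G, ∃ u ∈ Qb p X, ∃ c₁ ∈ pCore p G, c = u * c₁ ∧ z * c₁ = c₁ * z)

/-- [M-CQP] the pair `(K, A)` for the orbit lemma. -/
def PkgCQP : Prop :=
  ∀ {G : Type u} [Group G] [Finite G] {p : ℕ} [Fact p.Prime] (S₀ X K : Subgroup G) (z : G),
    GF p S₀ → SBlk p X → BF p X → Q8S p S₀ X K z → OB1 p X K z →
    CQPair (Vb p G) 9 K (Ab p X) z

/-! ### Two-block sub-packages -/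

/-- [M-SI] if `A_E = A_F` then `K_E` and `K_F` induce the same group on it. -/
def PkgSI : Prop :=
  ∀ {G : Type u} [Group G] [Finite G] {p : ℕ} [Fact p.Prime] (S₀ E F KE KF : Subgroup G)
    (zE zF : G), GF p S₀ → OB p S₀ E KE zE → OB p S₀ F KF zF → Ab p E = Ab p F →
    ∀ l ∈ KF, ∃ k ∈ KE, ∀ a ∈ Ab p E, k * a * k⁻¹ = l * a * l⁻¹

/-- [M-EQ] `z_E = z_F` implies `E = F`. -/
def PkgEQ : Prop :=
  ∀ {G : Type u} [Group G] [Finite G] {p : ℕ} [Fact p.Prime] (S₀ E F KE KF : Subgroup G)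
    (zE zF : G), GF p S₀ → OB p S₀ E KE zE → OB p S₀ F KF zF → zE = zF → E = F

/-- [M-CQ2] two exceptional blocks: the orbit lemma in `G ⧸ V`. -/
def PkgCQ2 : Prop :=
  ∀ {G : Type u} [Group G] [Finite G] {p : ℕ} [Fact p.Prime] (S₀ E F KE KF : Subgroup G)
    (zE zF : G), GF p S₀ → OB p S₀ E KE zE → OB p S₀ F KF zF →
    XB p S₀ E KE zE → XB p S₀ F KF zF → Same p E F ∨ Orth p E F KE KF

/-- [M-SNN] `A_E = A_F`, both non-exceptional. -/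
def PkgSNN : Prop :=
  ∀ {G : Type u} [Group G] [Finite G] {p : ℕ} [Fact p.Prime] (S₀ E F KE KF : Subgroup G)
    (zE zF : G), GF p S₀ → OB p S₀ E KE zE → OB p S₀ F KF zF → Ab p E = Ab p F →
    NB p E → NB p F → zE = zF

/-- [M-SXN] `A_E = A_F`, `E` exceptional, `F` not: impossible. -/
def PkgSXN : Prop :=
  ∀ {G : Type u} [Group G] [Finite G] {p : ℕ} [Fact p.Prime] (S₀ E F KE KF : Subgroup G)
    (zE zF : G), GF p S₀ → OB p S₀ E KE zE → OB p S₀ F KF zF → Ab p E = Ab p F →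
    XB p S₀ E KE zE → NB p F → False

/-- [M-SXXs] `A_E = A_F`, both exceptional, `Q_E V = Q_F V`. -/
def PkgSXXs : Prop :=
  ∀ {G : Type u} [Group G] [Finite G] {p : ℕ} [Fact p.Prime] (S₀ E F KE KF : Subgroup G)
    (zE zF : G), GF p S₀ → OB p S₀ E KE zE → OB p S₀ F KF zF → Ab p E = Ab p F →
    XB p S₀ E KE zE → XB p S₀ F KF zF → Same p E F → zE = zF

/-- [M-SXXo] `A_E = A_F`, both exceptional, orthogonal: impossible. -/
def PkgSXXo : Prop :=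
  ∀ {G : Type u} [Group G] [Finite G] {p : ℕ} [Fact p.Prime] (S₀ E F KE KF : Subgroup G)
    (zE zF : G), GF p S₀ → OB p S₀ E KE zE → OB p S₀ F KF zF → Ab p E = Ab p F →
    XB p S₀ E KE zE → XB p S₀ F KF zF → Orth p E F KE KF → False

/-- [M-ONN] orthogonal `A`'s, both non-exceptional. -/
def PkgONN : Prop :=
  ∀ {G : Type u} [Group G] [Finite G] {p : ℕ} [Fact p.Prime] (S₀ E F KE KF : Subgroup G)
    (zE zF : G), GF p S₀ → OB p S₀ E KE zE → OB p S₀ F KF zF →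
    Cz KF (Ab p E) → Cz KE (Ab p F) → NB p E → NB p F → ⁅E, F⁆ = ⊥

/-- [M-OXN] orthogonal `A`'s, `E` exceptional, `F` not. -/
def PkgOXN : Prop :=
  ∀ {G : Type u} [Group G] [Finite G] {p : ℕ} [Fact p.Prime] (S₀ E F KE KF : Subgroup G)
    (zE zF : G), GF p S₀ → OB p S₀ E KE zE → OB p S₀ F KF zF →
    Cz KF (Ab p E) → Cz KE (Ab p F) → XB p S₀ E KE zE → NB p F → ⁅E, F⁆ = ⊥

/-- [M-OXXo] orthogonal `A`'s, both exceptional, orthogonal. -/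
def PkgOXXo : Prop :=
  ∀ {G : Type u} [Group G] [Finite G] {p : ℕ} [Fact p.Prime] (S₀ E F KE KF : Subgroup G)
    (zE zF : G), GF p S₀ → OB p S₀ E KE zE → OB p S₀ F KF zF →
    Cz KF (Ab p E) → Cz KE (Ab p F) → XB p S₀ E KE zE → XB p S₀ F KF zF →
    Orth p E F KE KF → ⁅E, F⁆ = ⊥

/-- [M-OXXs] orthogonal `A`'s, both exceptional, `Q_E V = Q_F V`: impossible. -/
def PkgOXXs : Prop :=
  ∀ {G : Type u} [Group G] [Finite G] {p : ℕ} [Fact p.Prime] (S₀ E F KE KF : Subgroup G)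
    (zE zF : G), GF p S₀ → OB p S₀ E KE zE → OB p S₀ F KF zF →
    Cz KF (Ab p E) → Cz KE (Ab p F) → XB p S₀ E KE zE → XB p S₀ F KF zF →
    Same p E F → False

/-- [Q8-M] from its sub-packages. -/
theorem pkgQ8M_asm (hCQ : PkgCQ.{u}) (hBF : PkgBF.{u}) (hGF : PkgGF.{u}) (hOB1 : PkgOB1.{u})
    (hNB : PkgNB.{u}) (hXB : PkgXB.{u}) (hZQ : PkgZQ.{u}) (hCP : PkgCP.{u}) (hCQP : PkgCQP.{u})
    (hEQ : PkgEQ.{u}) (hCQ2 : PkgCQ2.{u}) (hSNN : PkgSNN.{u}) (hSXN : PkgSXN.{u})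
    (hSXXs : PkgSXXs.{u}) (hSXXo : PkgSXXo.{u}) (hONN : PkgONN.{u}) (hOXN : PkgOXN.{u})
    (hOXXo : PkgOXXo.{u}) (hOXXs : PkgOXXs.{u}) : PkgQ8M.{u} := by
  intro G _ _ p _ p3 hG S₀ E F KE KF zE zF hS bE bF dE dF
  have gf : GF p S₀ := hGF p3 hG S₀ hS
  have mk : ∀ (X K : Subgroup G) (z : G), SBlk p X → Q8D p S₀ X K z → OB p S₀ X K z := by
    intro X K z sb d
    have bf := hBF X sb
    have b1 := hOB1 S₀ X K z gf sb bf d.1
    have alt : Alt p S₀ X K z := by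
      rcases d.2 with h | ⟨hexc, hnq⟩
      · exact Or.inl (hNB S₀ X K z gf sb bf d.1 b1 h)
      · exact Or.inr (hXB S₀ X K z gf sb bf d.1 b1 hexc hnq)
    obtain ⟨h1, h2, h3⟩ := hCP S₀ X K z gf sb bf d.1 b1 alt
    exact ⟨sb, bf, d.1, b1, alt, hZQ S₀ X K z gf sb bf d.1 b1 alt, h1, h2, h3,
      hCQP S₀ X K z gf sb bf d.1 b1⟩
  have oE := mk E KE zE bE dE
  have oF := mk F KF zF bF dF
  haveI : Fact (Nat.Prime 2) := ⟨Nat.prime_two⟩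
  rcases hCQ S₀ (Vb p G) 2 gf.syl.1 (fun s _ v hv => gf.Vn s v hv) 9 (by norm_num)
    KE (Ab p E) zE KF (Ab p F) zF oE.q8.KS oF.q8.KS oE.cq oF.cq with hA | ⟨hc1, hc2⟩
  · rcases oE.alt with nE | xE <;> rcases oF.alt with nF | xF
    · exact Or.inl (hEQ S₀ E F KE KF zE zF gf oE oF
        (hSNN S₀ E F KE KF zE zF gf oE oF hA nE nF))
    · exact (hSXN S₀ F E KF KE zF zE gf oF oE hA.symm xF nE).elim
    · exact (hSXN S₀ E F KE KF zE zF gf oE oF hA xE nF).elim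
    · rcases hCQ2 S₀ E F KE KF zE zF gf oE oF xE xF with hs | ho
      · exact Or.inl (hEQ S₀ E F KE KF zE zF gf oE oF
          (hSXXs S₀ E F KE KF zE zF gf oE oF hA xE xF hs))
      · exact (hSXXo S₀ E F KE KF zE zF gf oE oF hA xE xF ho).elim
  · rcases oE.alt with nE | xE <;> rcases oF.alt with nF | xF
    · exact Or.inr (hONN S₀ E F KE KF zE zF gf oE oF hc1 hc2 nE nF)
    · have h := hOXN S₀ F E KF KE zF zE gf oF oE hc2 hc1 xF nE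
      exact Or.inr (by rw [Subgroup.commutator_comm]; exact h)
    · exact Or.inr (hOXN S₀ E F KE KF zE zF gf oE oF hc1 hc2 xE nF)
    · rcases hCQ2 S₀ E F KE KF zE zF gf oE oF xE xF with hs | ho
      · exact (hOXXs S₀ E F KE KF zE zF gf oE oF hc1 hc2 xE xF hs).elim
      · exact Or.inr (hOXXo S₀ E F KE KF zE zF gf oE oF hc1 hc2 xE xF ho)

end Cfsg.Agent.Lib.Helper83.SnB
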