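import Mathlib
import Cfsg.Agent.Lib.Helper83.SnB.Q8MDefs

/-!
S2986, package [Q8-M], sub-package [M-NB] (helper83): a non-exceptional block has `Q = W = A`
and `Z = 1`.
-/

set_option autoImplicit false

namespace Cfsg.Agent.Lib.Helper83.SnB

open Cfsg Cfsg.Agent.Lib.Helper41.SnB Cfsg.Agent.Lib.Helper34.SnB

universe u

theorem pkgNB : PkgNB.{u} := by
  intro G _ _ p _ S₀ X K z gf sb bf q8 b1 h
  have hWA : Wb p X ≤ Ab p X := by
    have h1 : Wb p X ≤ Qb p X := bf.WQ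
    rw [h] at h1
    exact h1
  have hW : Wb p X = Ab p X := le_antisymm hWA bf.AW
  refine ⟨h, hW, ?_⟩
  rw [eq_bot_iff]
  intro ζ hζ
  have hζW : ζ ∈ Wb p X := hζ.1
  have hζA : ζ ∈ Ab p X := hWA hζW
  exact Subgroup.mem_bot.mpr (b1.AZ0 ζ hζA hζ)

end Cfsg.Agent.Lib.Helper83.SnB
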