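import Mathlib
import Cfsg.Agent.Lib.Helper83.SnB.Q8MDefs

/-!
S2986, package [Q8-M], sub-package [M-SXN] (helper83): `A_E = A_F`, `E` exceptional, `F` not,
is impossible.
-/

set_option autoImplicit false

namespace Cfsg.Agent.Lib.Helper83.SnB

open Cfsg Cfsg.Agent.Lib.Helper41.SnB Cfsg.Agent.Lib.Helper34.SnB
open scoped commutatorElement

universe u

theorem pkgSXN : PkgSXN.{u} := by
  intro G _ _ p _ S₀ E F KE KF zE zF gf oE oF hA xE nF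
  have hzE : zE ∈ E := oE.q8.KX oE.q8.zK
  have hzF : zF ∈ F := oF.q8.KX oF.q8.zK
  have hzEn : zE ∈ Subgroup.normalizer (E : Set G) := Subgroup.le_normalizer hzE
  have hg₀ : zE * zF ∈ S₀ := S₀.mul_mem (oE.q8.KS oE.q8.zK) (oF.q8.KS oF.q8.zK)
  have hAW : Ab p E ≤ Wb p E := oE.bf.AW
  have hWQ : Wb p E ≤ Qb p E := oE.bf.WQ
  have hQP : Qb p E ≤ pCore p G := oE.sb.QP
  have F1 : ∀ c ∈ pCore p G, zF * c * zF⁻¹ * c⁻¹ ∈ Ab p E := by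
    intro c hc
    have h := oF.b1.PXQ zF hzF c hc
    rw [nF.1, ← hA] at h
    exact h
  have F5 : ∀ a ∈ Ab p E, (zE * zF) * a = a * (zE * zF) := by
    intro a ha
    have h1 : zF * a * zF⁻¹ = a⁻¹ := oF.q8.invA a (hA ▸ ha)
    have h2 : zE * a⁻¹ * zE⁻¹ = (a⁻¹)⁻¹ := oE.q8.invA a⁻¹ (inv_mem ha)
    have h3 : (zE * zF) * a * (zE * zF)⁻¹ = a := by
      calc (zE * zF) * a * (zE * zF)⁻¹ = zE * (zF * a * zF⁻¹) * zE⁻¹ := by group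
        _ = a := by rw [h1, h2, inv_inv]
    calc (zE * zF) * a = (zE * zF) * a * (zE * zF)⁻¹ * (zE * zF) := by group
      _ = a * (zE * zF) := by rw [h3]
  have F6 : ∀ w ∈ Wb p E, (zE * zF) * w * (zE * zF)⁻¹ * w⁻¹ ∈ Ab p E := by
    intro w hw
    have h1 : zF * w * zF⁻¹ * w⁻¹ ∈ Ab p E := F1 w (hQP (hWQ hw))
    have h2 : zE * (zF * w * zF⁻¹ * w⁻¹) * zE⁻¹ ∈ Ab p E := oE.bf.nA zE hzEn _ h1
    have h3 : zE * w * zE⁻¹ * w⁻¹ ∈ Ab p E := by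
      have h4 : ⁅w, zE⁆ ∈ Ab p E := Subgroup.commutator_mem_commutator hw hzE
      have h5 : zE * w * zE⁻¹ * w⁻¹ = ⁅w, zE⁆⁻¹ := by rw [commutatorElement_def]; group
      rw [h5]; exact inv_mem h4
    have h6 : (zE * zF) * w * (zE * zF)⁻¹ * w⁻¹
        = zE * (zF * w * zF⁻¹ * w⁻¹) * zE⁻¹ * (zE * w * zE⁻¹ * w⁻¹) := by group
    rw [h6]; exact mul_mem h2 h3
  have F7 : ∀ w ∈ Wb p E, (zE * zF) * w = w * (zE * zF) :=
    coprimeChain (Wb p E) (Ab p E) (zE * zF)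
      (fun h hh => ⟨1, by rw [pow_one]; exact oE.b1.W3 h hh⟩) (gf.S2 _ hg₀) hAW F5 F6
  refine xE.noInv (zE * zF) hg₀ ?_ ?_ ?_ ?_
  · intro u hu
    have h1 : zF * u * zF⁻¹ ∈ Qb p E := by
      have h2 : zF * u * zF⁻¹ * u⁻¹ ∈ Qb p E := hWQ (hAW (F1 u (hQP hu)))
      have h3 : zF * u * zF⁻¹ = (zF * u * zF⁻¹ * u⁻¹) * u := by group
      rw [h3]; exact mul_mem h2 hu
    have h4 := oE.bf.nQ zE hzEn _ h1
    have h5 : (zE * zF) * u * (zE * zF)⁻¹ = zE * (zF * u * zF⁻¹) * zE⁻¹ := by group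
    rw [h5]; exact h4
  · intro w hw
    have h1 := F7 w hw
    have h2 : (zE * zF) * w * (zE * zF)⁻¹ * w⁻¹ = 1 := by rw [h1]; group
    rw [h2]; exact one_mem _
  · intro c hc u hu
    apply xE.QZ _ _ u hu
    have h1 : zE * (zF * c * zF⁻¹ * c⁻¹) * zE⁻¹ ∈ Qb p E :=
      hWQ (hAW (oE.bf.nA zE hzEn _ (F1 c hc)))
    have h2 : zE * c * zE⁻¹ * c⁻¹ ∈ Qb p E := oE.b1.PXQ zE hzE c hc
    have h3 : (zE * zF) * c * (zE * zF)⁻¹ * c⁻¹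
        = zE * (zF * c * zF⁻¹ * c⁻¹) * zE⁻¹ * (zE * c * zE⁻¹ * c⁻¹) := by group
    rw [h3]; exact mul_mem h1 h2
  · intro u hu
    have h1 : zE * (zF * u * zF⁻¹ * u⁻¹) * zE⁻¹ ∈ Wb p E :=
      hAW (oE.bf.nA zE hzEn _ (F1 u (hQP hu)))
    have h2 : zE * u * zE⁻¹ * u ∈ Wb p E := xE.exc.invQ u hu
    have h3 : (zE * zF) * u * (zE * zF)⁻¹ * u
        = zE * (zF * u * zF⁻¹ * u⁻¹) * zE⁻¹ * (zE * u * zE⁻¹ * u) := by group
    rw [h3]; exact mul_mem h1 h2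

end Cfsg.Agent.Lib.Helper83.SnB
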