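import Mathlib
import Cfsg.Agent.Lib.Helper83.SnB.Q8MDefs

/-!
S2986, package [Q8-M], sub-package [M-SXXs] (helper83): `A_E = A_F`, both blocks exceptional,
`Q_E V = Q_F V`: then `z_E = z_F`.
-/

set_option autoImplicit false

namespace Cfsg.Agent.Lib.Helper83.SnB

open Cfsg Cfsg.Agent.Lib.Helper41.SnB Cfsg.Agent.Lib.Helper34.SnB
open scoped commutatorElement

universe u

theorem pkgSXXs : PkgSXXs.{u} := by
  intro G _ _ p _ S₀ E F KE KF zE zF gf oE oF hA xE xF hs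
  have hs' : Qb p E ⊔ Vb p G = Qb p F ⊔ Vb p G := hs
  have hzE : zE ∈ E := oE.q8.KX oE.q8.zK
  have hzF : zF ∈ F := oF.q8.KX oF.q8.zK
  have hzEn : zE ∈ Subgroup.normalizer (E : Set G) := Subgroup.le_normalizer hzE
  have hg₀ : zE * zF ∈ S₀ := S₀.mul_mem (oE.q8.KS oE.q8.zK) (oF.q8.KS oF.q8.zK)
  haveI hVn : (Vb p G).Normal := ⟨fun v hv g => gf.Vn g v hv⟩
  have hHP : Qb p E ⊔ Vb p G ≤ pCore p G := sup_le oE.sb.QP gf.VP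
  have inv_gen : ∀ (X K : Subgroup G) (z : G), OB p S₀ X K z → XB p S₀ X K z →
      ∀ y ∈ Qb p X ⊔ Vb p G, z * y * z⁻¹ * y ∈ Vb p G := by
    intro X K z oX xX y hy
    have hy' : y ∈ ((Qb p X ⊔ Vb p G : Subgroup G) : Set G) := hy
    rw [Subgroup.mul_normal] at hy'
    obtain ⟨u, hu, v, hv, rfl⟩ := Set.mem_mul.mp hy'
    have h1 : z * u * z⁻¹ * u ∈ Vb p G := xX.WV (xX.exc.invQ u hu)
    have h2 : z * v * z⁻¹ ∈ Vb p G := gf.Vn z v hv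
    have h3 : (z * v * z⁻¹) * u = u * (z * v * z⁻¹) := gf.Vc _ h2 u (oX.sb.QP hu)
    have h4 : z * (u * v) * z⁻¹ * (u * v) = (z * u * z⁻¹ * u) * (z * v * z⁻¹) * v := by
      calc z * (u * v) * z⁻¹ * (u * v) = (z * u * z⁻¹) * ((z * v * z⁻¹) * u) * v := by group
        _ = (z * u * z⁻¹) * (u * (z * v * z⁻¹)) * v := by rw [h3]
        _ = (z * u * z⁻¹ * u) * (z * v * z⁻¹) * v := by group
    rw [h4]
    exact mul_mem (mul_mem h1 h2) hv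
  have invE := inv_gen E KE zE oE xE
  have invF : ∀ y ∈ Qb p E ⊔ Vb p G, zF * y * zF⁻¹ * y ∈ Vb p G := by
    intro y hy
    rw [hs'] at hy
    exact inv_gen F KF zF oF xF y hy
  have F5 : ∀ a ∈ Ab p E, (zE * zF) * a = a * (zE * zF) := by
    intro a ha
    have h1 : zF * a * zF⁻¹ = a⁻¹ := oF.q8.invA a (hA ▸ ha)
    have h2 : zE * a⁻¹ * zE⁻¹ = (a⁻¹)⁻¹ := oE.q8.invA a⁻¹ (inv_mem ha)
    have h3 : (zE * zF) * a * (zE * zF)⁻¹ = a := by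
      calc (zE * zF) * a * (zE * zF)⁻¹ = zE * (zF * a * zF⁻¹) * zE⁻¹ := by group
        _ = a := by rw [h1, h2, inv_inv]
    calc (zE * zF) * a = (zE * zF) * a * (zE * zF)⁻¹ * (zE * zF) := by group
      _ = a * (zE * zF) := by rw [h3]
  have F2 : ∀ v ∈ Vb p G, (zE * zF) * v * (zE * zF)⁻¹ * v⁻¹ ∈ Ab p E := by
    intro v hv
    have h1 : zF * v * zF⁻¹ * v⁻¹ ∈ Ab p E := by
      have h := oF.q8.VA v hv zF hzF
      rw [← hA] at h; exact h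
    have h2 : zE * (zF * v * zF⁻¹ * v⁻¹) * zE⁻¹ ∈ Ab p E := oE.bf.nA zE hzEn _ h1
    have h3 : zE * v * zE⁻¹ * v⁻¹ ∈ Ab p E := oE.q8.VA v hv zE hzE
    have h6 : (zE * zF) * v * (zE * zF)⁻¹ * v⁻¹
        = zE * (zF * v * zF⁻¹ * v⁻¹) * zE⁻¹ * (zE * v * zE⁻¹ * v⁻¹) := by group
    rw [h6]; exact mul_mem h2 h3
  have CV : ∀ v ∈ Vb p G, (zE * zF) * v = v * (zE * zF) :=
    coprimeChain (Vb p G) (Ab p E) (zE * zF)
      (fun h hh => ⟨1, by rw [pow_one]; exact gf.V3 h hh⟩) (gf.S2 _ hg₀) oE.sb.AV F5 F2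
  have F3 : ∀ y ∈ Qb p E ⊔ Vb p G, (zE * zF) * y * (zE * zF)⁻¹ * y⁻¹ ∈ Vb p G := by
    intro y hy
    have h1 := invF y hy
    have h2 := invE y hy
    have h3 : zE * (zF * y * zF⁻¹ * y) * zE⁻¹ ∈ Vb p G := gf.Vn zE _ h1
    have h4 : y * (zE * y * zE⁻¹ * y)⁻¹ * y⁻¹ ∈ Vb p G := gf.Vn y _ (inv_mem h2)
    have h5 : (zE * zF) * y * (zE * zF)⁻¹ * y⁻¹
        = zE * (zF * y * zF⁻¹ * y) * zE⁻¹ * (y * (zE * y * zE⁻¹ * y)⁻¹ * y⁻¹) := by group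
    rw [h5]; exact mul_mem h3 h4
  have CH : ∀ y ∈ Qb p E ⊔ Vb p G, (zE * zF) * y = y * (zE * zF) :=
    coprimeChain (Qb p E ⊔ Vb p G) (Vb p G) (zE * zF) (fun h hh => gf.Pp h (hHP hh))
      (gf.S2 _ hg₀) le_sup_right CV F3
  have F4 : ∀ c ∈ pCore p G, (zE * zF) * c * (zE * zF)⁻¹ * c⁻¹ ∈ Qb p E ⊔ Vb p G := by
    intro c hc
    have h1 : zF * c * zF⁻¹ * c⁻¹ ∈ Qb p E ⊔ Vb p G := by
      have h : zF * c * zF⁻¹ * c⁻¹ ∈ Qb p F ⊔ Vb p G :=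
        (le_sup_left : Qb p F ≤ Qb p F ⊔ Vb p G) (oF.b1.PXQ zF hzF c hc)
      rw [← hs'] at h; exact h
    have h2 : zE * (zF * c * zF⁻¹ * c⁻¹) * zE⁻¹ ∈ Qb p E ⊔ Vb p G := by
      have h3 := invE _ h1
      have h4 : zE * (zF * c * zF⁻¹ * c⁻¹) * zE⁻¹
          = (zE * (zF * c * zF⁻¹ * c⁻¹) * zE⁻¹ * (zF * c * zF⁻¹ * c⁻¹))
            * (zF * c * zF⁻¹ * c⁻¹)⁻¹ := by group
      rw [h4]
      exact mul_mem ((le_sup_right : Vb p G ≤ Qb p E ⊔ Vb p G) h3) (inv_mem h1)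
    have h5 : zE * c * zE⁻¹ * c⁻¹ ∈ Qb p E ⊔ Vb p G :=
      (le_sup_left : Qb p E ≤ Qb p E ⊔ Vb p G) (oE.b1.PXQ zE hzE c hc)
    have h6 : (zE * zF) * c * (zE * zF)⁻¹ * c⁻¹
        = zE * (zF * c * zF⁻¹ * c⁻¹) * zE⁻¹ * (zE * c * zE⁻¹ * c⁻¹) := by group
    rw [h6]; exact mul_mem h2 h5
  have CP : ∀ c ∈ pCore p G, (zE * zF) * c = c * (zE * zF) :=
    coprimeChain (pCore p G) (Qb p E ⊔ Vb p G) (zE * zF) gf.Pp (gf.S2 _ hg₀) hHP CH F4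
  have h1 : zE * zF = 1 := gf.ST _ hg₀ CP
  calc zE = zE * (zF * zF) := by rw [oF.q8.zz, mul_one]
    _ = (zE * zF) * zF := by group
    _ = zF := by rw [h1, one_mul]

end Cfsg.Agent.Lib.Helper83.SnB
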