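import Mathlib
import Cfsg.Prelude.Def_CaseTheorems
import Cfsg.Agent.Lib.Helper34.SnB.QSDefs
import Cfsg.Agent.Lib.Helper85.BB.S2984Core
import Cfsg.Agent.Lib.Helper47.Subn
import Cfsg.Agent.Lib.Helper11.TW.Core
import Cfsg.Agent.Lib.Helper55.Cores

/-!
# S2986 [QS] sub-package [QS-BF]: the derived facts on one block

`pkgBF_of (hR : PkgRes) : PkgBF`.
-/

set_option autoImplicit false

namespace Cfsg.Agent.Lib.Helper83.SnB

open Cfsg Cfsg.Agent.Lib.Helper41.SnB Cfsg.Agent.Lib.Helper34.SnB Cfsg.Agent.Lib.Helper85.BB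
open scoped commutatorElement

universe u

theorem pkgBF_of (hR : PkgRes.{u}) : PkgBF.{u} := by
  intro G _ _ p _ X hX
  have hNQ : Subgroup.normalizer (X : Set G) ≤ Subgroup.normalizer (Qb p X : Set G) :=
    Cfsg.Agent.Lib.Helper47.normalizer_le_normalizer_pCoreOf p X
  have hNW : Subgroup.normalizer (X : Set G) ≤ Subgroup.normalizer (Wb p X : Set G) :=
    hNQ.trans (normalizer_le_normalizer_omegaOneCenter p (pCoreOf p X))
  have hNC : Subgroup.normalizer (X : Set G) ≤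
      Subgroup.normalizer ((Subgroup.centralizer (X : Set G) : Subgroup G) : Set G) :=
    Cfsg.Agent.Lib.Helper47.normalizer_le_normalizer_centralizer X
  have hQp : IsPGroup p ↥(Qb p X) := Cfsg.Agent.Lib.Helper11.TW.pCoreOf_isPGroup p X
  have hQX : Qb p X ≤ X := Subgroup.map_subtype_le _
  have hWQ : Wb p X ≤ Qb p X := omegaOneCenter_le p _
  have hXN : X ≤ Subgroup.normalizer (X : Set G) := Subgroup.le_normalizer
  have nQ : ∀ g ∈ Subgroup.normalizer (X : Set G), ∀ y ∈ Qb p X, g * y * g⁻¹ ∈ Qb p X :=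
    fun g hg y hy => (Subgroup.mem_normalizer_iff.mp (hNQ hg) y).mp hy
  have nW : ∀ g ∈ Subgroup.normalizer (X : Set G), ∀ y ∈ Wb p X, g * y * g⁻¹ ∈ Wb p X :=
    fun g hg y hy => (Subgroup.mem_normalizer_iff.mp (hNW hg) y).mp hy
  have nZ : ∀ g ∈ Subgroup.normalizer (X : Set G), ∀ y ∈ Zb p X, g * y * g⁻¹ ∈ Zb p X := by
    intro g hg y hy
    exact Subgroup.mem_inf.mpr ⟨nW g hg y (Subgroup.mem_inf.mp hy).1,
      (Subgroup.mem_normalizer_iff.mp (hNC hg) y).mp (Subgroup.mem_inf.mp hy).2⟩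
  have nA : ∀ g ∈ Subgroup.normalizer (X : Set G), ∀ y ∈ Ab p X, g * y * g⁻¹ ∈ Ab p X :=
    fun g hg y hy => commutator_conj_mem (hNW hg) hg y hy
  have hNzXW : Nz X (Wb p X) := fun x hx w hw => nW x (hXN hx) w hw
  have AW : Ab p X ≤ Wb p X := by
    rw [Subgroup.commutator_le]
    intro w hw x hx
    rw [commutatorElement_def]
    have h1 : x * w⁻¹ * x⁻¹ ∈ Wb p X := hNzXW x hx _ (inv_mem hw)
    have h2 : w * x * w⁻¹ * x⁻¹ = w * (x * w⁻¹ * x⁻¹) := by group
    rw [h2]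
    exact mul_mem hw h1
  have hWp : IsPGroup p ↥(Wb p X) := hQp.to_le hWQ
  have AA : ⁅Ab p X, X⁆ = Ab p X := hR X (Wb p X) hX.res hWp hNzXW
  have ZC : ∀ z ∈ Zb p X, ∀ x ∈ X, z * x = x * z := by
    intro z hz x hx
    exact (Subgroup.mem_centralizer_iff.mp (Subgroup.mem_inf.mp hz).2 x hx).symm
  have hZC' : Zb p X ≤ Subgroup.centralizer (X : Set G) := inf_le_right
  have AZ : ¬ Ab p X ≤ Zb p X := by
    intro h
    have h1 : ⁅Ab p X, X⁆ = ⊥ :=
      Subgroup.commutator_eq_bot_iff_le_centralizer.mpr (h.trans hZC')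
    have h2 : Ab p X = ⊥ := by
      rw [← AA]
      exact h1
    have h3 : Wb p X ≤ Subgroup.centralizer (X : Set G) :=
      Subgroup.commutator_eq_bot_iff_le_centralizer.mp h2
    exact hX.WZ (le_inf le_rfl h3)
  have hNzXA : Nz X (Ab p X) := fun x hx a ha => nA x (hXN hx) a ha
  have hV : Vb p G ≤ pCore p G := omegaOneCenter_le p _
  have hVC : Vb p G ≤ Subgroup.centralizer (pCore p G : Set G) :=
    omegaOneCenter_le_centralizer p _
  refine ⟨hQp, hQX, hWQ, ?_, AW, ?_, nQ, nW, nZ, nA, ZC, AA, AZ, ?_, ?_, ?_⟩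
  · -- WcQ
    intro w hw q hq
    exact (Subgroup.mem_centralizer_iff.mp (omegaOneCenter_le_centralizer p _ hw) q hq).symm
  · -- PA
    intro x hx a ha
    exact Subgroup.mem_centralizer_iff.mp (hVC (hX.AV ha)) x hx
  · -- WAZ
    exact hX.coverW (Ab p X) AW hNzXA AZ
  · -- irr
    intro Y hYA hNzY
    by_cases hYZ : Y ≤ Zb p X
    · exact Or.inl hYZ
    · right
      have hcov := hX.coverW Y (hYA.trans AW) hNzY hYZ
      exact le_antisymm hYA (comm_le_of_cover hcov hZC' hNzY)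
  · -- VA
    have hPn : (pCore p G).Normal := inferInstance
    have h1 : ⁅Vb p G, X⁆ ≤ Qb p X := by
      refine le_trans ?_ hX.EP
      rw [Subgroup.commutator_le]
      intro v hv x hx
      rw [commutatorElement_def]
      refine Subgroup.mem_inf.mpr ⟨?_, ?_⟩
      · have hvN := hX.PN (hV hv)
        have h2 : v * x * v⁻¹ ∈ X := (Subgroup.mem_normalizer_iff.mp hvN x).mp hx
        exact mul_mem h2 (inv_mem hx)
      · have h2 : x * v⁻¹ * x⁻¹ ∈ pCore p G := hPn.conj_mem _ (inv_mem (hV hv)) x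
        have h3 : v * x * v⁻¹ * x⁻¹ = v * (x * v⁻¹ * x⁻¹) := by group
        rw [h3]
        exact mul_mem (hV hv) h2
    have hVn : ∀ g : G, ∀ v ∈ Vb p G, g * v * g⁻¹ ∈ Vb p G := by
      intro g v hv
      have hg : g ∈ Subgroup.normalizer (pCore p G : Set G) := by
        rw [Subgroup.normalizer_eq_top]
        trivial
      exact (Subgroup.mem_normalizer_iff.mp
        (normalizer_le_normalizer_omegaOneCenter p _ hg) v).mp hv
    have h2 : ⁅Vb p G, X⁆ ≤ Vb p G := by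
      rw [Subgroup.commutator_le]
      intro v hv x hx
      rw [commutatorElement_def]
      have h3 : v * x * v⁻¹ * x⁻¹ = v * (x * v⁻¹ * x⁻¹) := by group
      rw [h3]
      exact mul_mem hv (hVn x _ (inv_mem hv))
    have h4 : Vb p G ⊓ Qb p X ≤ Wb p X := by
      intro v hv
      obtain ⟨hv1, hv2⟩ := Subgroup.mem_inf.mp hv
      show v ∈ omegaOne p (pCoreOf p X ⊓ Subgroup.centralizer (pCoreOf p X : Set G))
      apply Subgroup.subset_closure
      refine ⟨Subgroup.mem_inf.mpr ⟨hv2, ?_⟩, omegaOneCenter_pow p _ v hv1⟩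
      rw [Subgroup.mem_centralizer_iff]
      intro q hq
      exact Subgroup.mem_centralizer_iff.mp (hVC hv1) q (hX.QP hq)
    have h5 : ⁅Vb p G, X⁆ ≤ Wb p X := (le_inf h2 h1).trans h4
    have hVp : IsPGroup p ↥(Vb p G) := (Cfsg.Agent.Lib.Helper55.pCore_isPGroup p G).to_le hV
    have hNzXV : Nz X (Vb p G) := fun x _ v hv => hVn x v hv
    have h6 : ⁅⁅Vb p G, X⁆, X⁆ = ⁅Vb p G, X⁆ := hR X (Vb p G) hX.res hVp hNzXV
    rw [← h6]
    exact Subgroup.commutator_mono h5 le_rfl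

end Cfsg.Agent.Lib.Helper83.SnB
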