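import Mathlib
import Cfsg.Agent.Lib.Helper83.SnB.Q8MDefs
import Cfsg.Agent.Lib.Helper83.SnB.Q8MNB
import Cfsg.Agent.Lib.Helper83.SnB.Q8MSXN
import Cfsg.Agent.Lib.Helper83.SnB.Q8MSXXs
import Cfsg.Agent.Lib.Helper83.SnB.Q8MSXXo
import Cfsg.Agent.Lib.Helper83.SnB.QSBF
import Cfsg.Agent.Lib.Helper96.SnB.QSRes
import Cfsg.Agent.Lib.Helper38.SnB.Q8MGF
import Cfsg.Agent.Lib.Helper38.SnB.Q8MOB1
import Cfsg.Agent.Lib.Helper45.SnB.Q8MXB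
import Cfsg.Agent.Lib.Helper45.SnB.Q8MZQ
import Cfsg.Agent.Lib.Helper95.SnB.Q8MCP
import Cfsg.Agent.Lib.Helper79.SnB.Q8MCQP
import Cfsg.Agent.Lib.Helper79.SnB.Q8MSI
import Cfsg.Agent.Lib.Helper79.SnB.Q8MSNN
import Cfsg.Agent.Lib.Helper27.SnB.Q8MEQ
import Cfsg.Agent.Lib.Helper27.SnB.Q8MCQ2
import Cfsg.Agent.Lib.Helper59.SnB.Q8MONN
import Cfsg.Agent.Lib.Helper59.SnB.Q8MOXN
import Cfsg.Agent.Lib.Helper24.SnB.Q8MOXXo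
import Cfsg.Agent.Lib.Helper24.SnB.Q8MOXXs

/-!
S2986, package [Q8-M] (helper83): the main case analysis for two blocks of type `Q₈`, assembled
from its sub-packages (helpers 23, 24, 27, 38, 45, 46, 59, 62, 79, 83, 95, 96).
-/

set_option autoImplicit false

namespace Cfsg.Agent.Lib.Helper83.SnB

open Cfsg Cfsg.Agent.Lib.Helper41.SnB Cfsg.Agent.Lib.Helper34.SnB

universe u

/-- [Q8-M] from the orbit lemma [CQ]. -/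
theorem pkgQ8M_of (hCQ : PkgCQ.{u}) : PkgQ8M.{u} :=
  pkgQ8M_asm hCQ (pkgBF_of Cfsg.Agent.Lib.Helper96.SnB.pkgRes)
    Cfsg.Agent.Lib.Helper38.SnB.pkgGF Cfsg.Agent.Lib.Helper38.SnB.pkgOB1 pkgNB
    Cfsg.Agent.Lib.Helper45.SnB.pkgXB Cfsg.Agent.Lib.Helper45.SnB.pkgZQ
    Cfsg.Agent.Lib.Helper95.SnB.pkgCP Cfsg.Agent.Lib.Helper79.SnB.pkgCQP
    (Cfsg.Agent.Lib.Helper27.SnB.pkgEQ_of Cfsg.Agent.Lib.Helper79.SnB.pkgSI)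
    (Cfsg.Agent.Lib.Helper27.SnB.pkgCQ2_of hCQ) Cfsg.Agent.Lib.Helper79.SnB.pkgSNN pkgSXN
    pkgSXXs (pkgSXXo_of Cfsg.Agent.Lib.Helper79.SnB.pkgSI)
    Cfsg.Agent.Lib.Helper59.SnB.pkgONN Cfsg.Agent.Lib.Helper59.SnB.pkgOXN
    Cfsg.Agent.Lib.Helper24.SnB.pkgOXXo Cfsg.Agent.Lib.Helper24.SnB.pkgOXXs

end Cfsg.Agent.Lib.Helper83.SnB
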